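import Cfsg.Agent.Lib.OO.BG1
import Cfsg.Agent.Lib.OO.BG3
import Cfsg.Agent.Lib.OO.BG6

/-!
# A group of prime order acting coprimely with fixed points of odd order on a solvable group
-/

set_option autoImplicit false
set_option linter.unusedSectionVars false

namespace Cfsg.Agent.CE

open Subgroup Cfsg.Agent.Coprime Cfsg.Agent.OO
open scoped Pointwise commutatorElement

universe u

variable {G : Type u} [Group G] [Finite G] {H K R T U : Subgroup G}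

theorem sol_of_prime (hp : (♯R).Prime) : Sol R :=
  haveI : Fact (♯R).Prime := ⟨hp⟩
  sol_of_isPGroup (p := ♯R) (isPGroup_of_card_prime_pow (n := 1) (pow_one _).symm)

theorem odd_of_pi (h : PiGrp ({2} : Set ℕ)ᶜ K) : Odd ♯K :=
  Nat.not_even_iff_odd.1 fun e => (isPiNum_compl_singleton Nat.prime_two).1 h e.two_dvd

theorem pi_of_odd (h : Odd ♯K) : PiGrp ({2} : Set ℕ)ᶜ K :=
  (isPiNum_compl_singleton Nat.prime_two).2 h.not_two_dvd_nat

theorem eq_bot_of_le_odd (hU : IsPGroup 2 U) (h : U ≤ K) (ho : Odd ♯K) : U = ⊥ :=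
  by_contra fun e => ho.not_two_dvd_nat ((dvd_card_of_isPGroup hU e).trans (card_dvd h))

/-- `R` acts without fixed points on every 2-subgroup of `H` -/
theorem fpf (ho : Odd ♯(H ⊓ 𝐂(R))) (hU : IsPGroup 2 U) (h : U ≤ H) : U ⊓ 𝐂(R) = ⊥ :=
  eq_bot_of_le_odd (hU.to_le inf_le_left) (inf_le_inf_right _ h) ho

/-- `R` of prime order without fixed points on the 2-group `U`, `K` odd: `[K, R]` centralizes `U` -/
theorem act (hp : (♯R).Prime) (hU : IsPGroup 2 U) (hs : Sol K) (ho : Odd ♯K)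
    (hc : (♯K).Coprime ♯R) (hcU : (♯U).Coprime ♯R) (hn : R ≤ 𝐍(K)) (h1 : K ≤ 𝐍(U))
    (h2 : R ≤ 𝐍(U)) (h0 : U ⊓ 𝐂(R) = ⊥) : ⁅K, R⁆ ≤ 𝐂(U) := by
  by_cases e : U = ⊥
  · subst e; exact le_cent_symm bot_le
  have oR : Odd ♯R := Nat.not_even_iff_odd.1 fun h =>
    Nat.not_coprime_of_dvd_of_dvd one_lt_two (dvd_card_of_isPGroup hU e) h.two_dvd hcU
  have hle : ⁅K, R⁆ ≤ K := commutator_le_left' hn
  have n1 := le_norm_Phi h1
  have n2 := le_norm_Phi h2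
  have n0 := (Phi_normal U).norm
  have hcP : (♯(Phi U)).Coprime ♯R := coprime_card_mono hcU (Phi_le U) le_rfl
  have oL : Odd ♯((R ⊔ K) ⁒ Phi U) :=
    odd_quo (Odd.of_dvd_nat (oR.mul ho) (card_sup_dvd (.inl hn))) _
  have key := odd_prime_sdprod_abelem_cent1 (k := 2) (V := U ⁒ Phi U)
    (sol_quo (sol_sup hn (sol_of_prime hp) hs) (Phi U)) oL
    (sup_comm K R ▸ (IsSdprod.of_coprime hn hc).quo_of_coprime (sup_le n1 n2) hc)
    (coprime_quo hc _ _) (by rw [card_quo_of_coprime n2 hcP]; exact hp)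
    (abelem_quo_Phi hU) (quo_le_norm _ (sup_le h2 h1)) oL.not_two_dvd_nat
    (by rw [← coprime_quotient_cent (Phi_normal U) n2 hcP (.inr (sol_of_prime hp)), h0,
      quo_eq_bot bot_le])
  refine coprime_cent_Phi hU (hle.trans h1)
    (coprime_of_isPGroup hU (pi_of_odd (ho.of_dvd_nat (card_dvd hle)))) ?_
  rw [← quo_le_cent_iff n0 (hle.trans n1), quo_commutator n1 n2, le_cent_comm, commutator_comm]
  exact key.trans inf_le_right

theorem comm_le_Op (hp : (♯R).Prime) (hn : R ≤ 𝐍(H)) (hs : Sol H) (hc : (♯H).Coprime ♯R)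
    (ho : Odd ♯(H ⊓ 𝐂(R))) (h0 : Op' 2 H = ⊥) : ⁅H, R⁆ ≤ Op 2 H := by
  obtain ⟨K, hK, hRK⟩ := coprime_Hall_exists ({2} : Set ℕ)ᶜ hn hc hs
  have oK := odd_of_pi hK.piGrp
  have h1 := act hp (Op_isPGroup 2 H) (sol_of_le hs hK.le) oK (coprime_card_mono hc hK.le le_rfl)
    (coprime_card_mono hc (Op_le 2 H) le_rfl) hRK (hK.le.trans (Op_normal 2 H).norm)
    (le_norm_Op 2 hn) (fpf ho (Op_isPGroup 2 H) (Op_le 2 H))
  have hle : ⁅K, R⁆ ≤ K := commutator_le_left' hRK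
  have h2 : ⁅K, R⁆ ≤ Op 2 H := (le_inf (hle.trans hK.le) h1).trans (cent_Op_le_of_Op'_eq_bot hs h0)
  have h3 : ⁅K, R⁆ = ⊥ := eq_bot_of_le_odd ((Op_isPGroup 2 H).to_le h2) hle oK
  rw [Op_eq_Opi]
  exact coprime_comm_pcore hn hc hs hK (commutator_eq_bot_iff.1 h3)

section main

variable (hp : (♯R).Prime) (hn : R ≤ 𝐍(H)) (hs : Sol H) (hc : (♯H).Coprime ♯R)
  (ho : Odd ♯(H ⊓ 𝐂(R)))
include hp hn hs hc ho

/-- `[H, R] ≤ O_{2',2}(H)` -/
theorem comm_le_Op'p : ⁅H, R⁆ ≤ Op'p 2 H := by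
  have hN := Opi_normal ({2} : Set ℕ)ᶜ H
  have n2 : R ≤ 𝐍(Op' 2 H) := le_norm_Opi _ hn
  have c1 : (♯(Op' 2 H)).Coprime ♯R := coprime_card_mono hc hN.le le_rfl
  rw [← quoPre_Op_quo_Op', ← quo_le_iff_le_quoPre ((commutator_le_left' hn).trans hN.norm),
    quo_commutator hN.norm n2]
  refine comm_le_Op (by rw [card_quo_of_coprime n2 c1]; exact hp) (quo_le_norm _ hn) (sol_quo hs _)
    (coprime_quo hc _ _) ?_ (Opi_quo_Opi _ H)
  rw [← coprime_quotient_cent hN n2 c1 (.inr (sol_of_prime hp))]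
  exact odd_quo ho _

/-- `H = O_{2',2}(H) C_H(R)` -/
theorem Op'p_sup_cent : Op'p 2 H ⊔ H ⊓ 𝐂(R) = H :=
  le_antisymm (sup_le (Op'p_le 2 H) inf_le_left) ((coprime_cent_prod hn hc (.inl hs)).ge.trans
    (sup_le_sup_right (comm_le_Op'p hp hn hs hc ho) _))

/-- `H / O(H)` is 2-closed -/
theorem plen1 : PLen1 2 H := by
  rw [plen1_iff, isPiNum_compl_singleton Nat.prime_two]
  intro h
  have h1 : (Op'p 2 H).relIndex H ∣ ♯(H ⊓ 𝐂(R)) := by
    have e := relIndex_sup_eq' (A := Op'p 2 H) (B := H ⊓ 𝐂(R))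
      (.inr (inf_le_left.trans (Op'p_normal 2 H).norm))
    rw [Op'p_sup_cent hp hn hs hc ho] at e
    rw [e]
    exact relIndex_dvd_card _ _
  exact ho.not_two_dvd_nat (h.trans h1)

theorem le_Op'p_of_two (hU : IsPGroup 2 U) (h : U ≤ H) : U ≤ Op'p 2 H := by
  obtain ⟨T, hT, hUT⟩ := exists_syl_ge h hU
  exact hUT.trans ((plen1_iff_syl hT).1 (plen1 hp hn hs hc ho))

theorem sup_eq_Op'p (hT : Syl 2 T H) : Op' 2 H ⊔ T = Op'p 2 H :=
  plength1_Sylow_prod hT (plen1 hp hn hs hc ho)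

/-- `O(H) T ⊴ H` -/
theorem sup_normal (hT : Syl 2 T H) : (Op' 2 H ⊔ T) ⊴ H :=
  sup_eq_Op'p hp hn hs hc ho hT ▸ Op'p_normal 2 H

/-- `[H, R] ≤ O(H) T` -/
theorem comm_le (hT : Syl 2 T H) : ⁅H, R⁆ ≤ Op' 2 H ⊔ T :=
  sup_eq_Op'p hp hn hs hc ho hT ▸ comm_le_Op'p hp hn hs hc ho

/-- `H = O(H) N_H(T)` -/
theorem sup_norm (hT : Syl 2 T H) : Op' 2 H ⊔ H ⊓ 𝐍(T) = H := by
  have h1 := (hT.mono le_sup_right (sup_normal hp hn hs hc ho hT).le).frattini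
    (sup_normal hp hn hs hc ho hT)
  refine le_antisymm (sup_le (Opi_le _ H) inf_le_left) (h1.sup_eq.ge.trans ?_)
  exact sup_le (sup_le le_sup_left ((le_inf hT.le (le_norm_self T)).trans le_sup_right)) le_sup_right

/-- if `O(H) = 1` then the Sylow 2-subgroup is normal -/
theorem eq_Op (hT : Syl 2 T H) (h0 : Op' 2 H = ⊥) : T = Op 2 H := by
  rw [← Op'p_eq_Op h0, ← sup_eq_Op'p hp hn hs hc ho hT, h0, bot_sup_eq]

end main

section elt

variable {x : G} (hp : (orderOf x).Prime) (hn : x ∈ 𝐍(H)) (hs : Sol H)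
  (hc : (♯H).Coprime (orderOf x)) (ho : Odd ♯(H ⊓ 𝐂[x]))
include hp hn hs hc ho

theorem plen1_x : PLen1 2 H :=
  plen1 (R := zpowers x) (by rwa [Nat.card_zpowers]) (zpowers_le.2 hn) hs
    (by rwa [Nat.card_zpowers]) (by rwa [cent_zpowers])

theorem comm_le_x (hT : Syl 2 T H) : ⁅H, zpowers x⁆ ≤ Op' 2 H ⊔ T :=
  comm_le (R := zpowers x) (by rwa [Nat.card_zpowers]) (zpowers_le.2 hn) hs
    (by rwa [Nat.card_zpowers]) (by rwa [cent_zpowers]) hT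

theorem sup_normal_x (hT : Syl 2 T H) : (Op' 2 H ⊔ T) ⊴ H :=
  sup_normal (R := zpowers x) (by rwa [Nat.card_zpowers]) (zpowers_le.2 hn) hs
    (by rwa [Nat.card_zpowers]) (by rwa [cent_zpowers]) hT

theorem sup_norm_x (hT : Syl 2 T H) : Op' 2 H ⊔ H ⊓ 𝐍(T) = H :=
  sup_norm (R := zpowers x) (by rwa [Nat.card_zpowers]) (zpowers_le.2 hn) hs
    (by rwa [Nat.card_zpowers]) (by rwa [cent_zpowers]) hT

theorem Op'p_sup_cent_x : Op'p 2 H ⊔ H ⊓ 𝐂[x] = H :=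
  cent_zpowers x ▸ Op'p_sup_cent (R := zpowers x) (by rwa [Nat.card_zpowers]) (zpowers_le.2 hn) hs
    (by rwa [Nat.card_zpowers]) (by rwa [cent_zpowers])

theorem eq_Op_x (hT : Syl 2 T H) (h0 : Op' 2 H = ⊥) : T = Op 2 H :=
  eq_Op (R := zpowers x) (by rwa [Nat.card_zpowers]) (zpowers_le.2 hn) hs
    (by rwa [Nat.card_zpowers]) (by rwa [cent_zpowers]) hT h0

end elt

end Cfsg.Agent.CE
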