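import Cfsg.Agent.Lib.CE.Def
import Cfsg.Agent.Lib.Frob.TwoFrob
import Cfsg.Agent.Lib.Frob.Complement
import Cfsg.Agent.Lib.Core.Subnormal
import Cfsg.Agent.Lib.Core.MixA
import Cfsg.Agent.Lib.OO.Final
import Cfsg.Agent.Lib.R1.ZStar

/-!
# Nonsolvable groups without elements of order `2 r`, modulo `CE`
-/

set_option autoImplicit false

namespace Cfsg.Agent.CE

open Subgroup Cfsg.Agent.OO

universe u

variable {X : Type u} [Group X] [Finite X]

/-- no two nontrivial subnormal subgroups commute -/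
def NoCom (X : Type u) [Group X] : Prop := ∀ L D : Subgroup X, L.IsSubnormal → D.IsSubnormal →
  L ≠ ⊥ → D ≠ ⊥ → ¬ L ≤ centralizer (D : Set X)

theorem NoCom.almost [Nontrivial X] (h : NoCom X) : ∃ S : Subgroup X, S.Normal ∧ IsSimpleGroup S ∧
    ¬ IsMulCommutative S ∧ centralizer (S : Set X) = ⊥ := by
  obtain ⟨S, hS⟩ := Core.exists_isMinNormal (G := X)
  have hn := hS.normal
  have hnt : Nontrivial S := (nontrivial_iff_ne_bot S).2 hS.ne_bot
  have hC : centralizer (S : Set X) = ⊥ := by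
    by_contra e
    exact h _ S (Subgroup.Normal.isSubnormal inferInstance) hn.isSubnormal e hS.ne_bot le_rfl
  refine ⟨S, hn, ⟨fun N hN => (em (N = ⊥)).imp_right fun h0 => ?_⟩, fun hc =>
    h S S hn.isSubnormal hn.isSubnormal hS.ne_bot hS.ne_bot fun x hx y hy =>
      Core.mul_comm_of_mem_of_isMulCommutative hc hy hx, hC⟩
  obtain ⟨L, hL, hle⟩ := Core.exists_isMinNormal_le h0
  have sub : ∀ M : Subgroup S, Core.IsMinNormal M → (M.map S.subtype).IsSubnormal ∧
      M.map S.subtype ≠ ⊥ := fun M hM =>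
    ⟨Subgroup.IsSubnormal.trans' (H := M) (K := S) hM.normal.isSubnormal hn.isSubnormal, by
      rw [Ne, map_eq_bot_iff_of_injective _ S.subtype_injective]; exact hM.ne_bot⟩
  have key : ∀ g : X, L.map (MulAut.conjNormal g : MulAut S).toMonoidHom = L := fun g => by
    by_contra hne
    have h2 := hL.map_equiv (MulAut.conjNormal g)
    refine h _ _ (sub _ h2).1 (sub _ hL).1 (sub _ h2).2 (sub _ hL).2 ?_
    rintro _ ⟨a, ha, rfl⟩ _ ⟨b, hb, rfl⟩
    exact congrArg Subtype.val (h2.le_centralizer_of_ne hL hne ha b hb)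
  have hN' : (L.map S.subtype).Normal := ⟨by
    rintro _ ⟨z, hz, rfl⟩ g
    have : (MulAut.conjNormal g : MulAut S) z ∈ L := key g ▸ ⟨z, hz, rfl⟩
    exact ⟨_, this, by simp⟩⟩
  have h4 := hS.eq_of_le (map_subtype_le L) (sub _ hL).2
  rw [eq_top_iff]
  intro z _
  obtain ⟨w, hw, e⟩ : (z : X) ∈ L.map S.subtype := h4.symm ▸ z.2
  exact hle (Subtype.ext e ▸ hw)

/-- the case in which `r` divides the order of the quotient by the radical -/
theorem noCom_of_dvd (h : CE.{u}) (hR : solvableRadical X = ⊥) {r : ℕ} (hr : r.Prime) (h2 : r ≠ 2)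
    (hd : r ∣ Nat.card X) (hno : ∀ g : X, orderOf g ≠ 2 * r) : NoCom X := by
  have := Fact.mk hr
  have := Fact.mk Nat.prime_two
  have nc : ∀ a b : X, orderOf a = 2 → orderOf b = r → ¬ Commute a b := fun a b ha hb e => by
    obtain ⟨g, hg⟩ := Frob.exists_orderOf_eq_mul_of_commute e
      ((Nat.coprime_primes Nat.prime_two hr).2 h2.symm) ha.symm.dvd hb.symm.dvd
    exact hno g hg
  have h1 : piCore ({r}ᶜ : Set ℕ) X ≤ ⊥ := by
    obtain ⟨x, hx⟩ := exists_prime_orderOf_dvd_card' r hd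
    refine hR ▸ Core.le_solvableRadical (h X _ x (hx ▸ hr) (le_normalizer_of_normal (mem_top x))
      ?_ ?_)
    · rw [hx, Nat.coprime_comm, hr.coprime_iff_not_dvd]
      exact fun e => Core.mem_of_dvd_card_piCore _ r hr e rfl
    · rw [← Nat.not_even_iff_odd, even_iff_two_dvd]
      intro e
      obtain ⟨t, ht, ho⟩ := Core.exists_mem_orderOf_eq_of_dvd_card e
      exact nc t x ho hx (ht.2 x rfl).symm
  have h3 : piCore ({2}ᶜ : Set ℕ) X ≤ ⊥ := by
    refine hR ▸ Core.le_solvableRadical (Feit_Thompson ?_)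
    rw [← Nat.not_even_iff_odd, even_iff_two_dvd]
    exact fun e => Core.mem_of_dvd_card_piCore _ 2 Nat.prime_two e rfl
  have ex : ∀ (p : ℕ) [Fact p.Prime] (L : Subgroup X), piCore ({p}ᶜ : Set ℕ) X ≤ ⊥ →
      L.IsSubnormal → L ≠ ⊥ → ∃ x ∈ L, orderOf x = p := fun p _ L h0 hL hb =>
    Core.exists_mem_orderOf_eq_of_dvd_card (by
      by_contra e
      exact hb (le_bot_iff.1 ((Core.le_piCore_of_isSubnormal hL fun q _ hq (e' : q = p) =>
        e (e' ▸ hq)).trans h0)))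
  intro L D hL hD hLb hDb hc
  obtain ⟨a, ha, ao⟩ := ex 2 D h3 hD hDb
  obtain ⟨b, hb, bo⟩ := ex r L h1 hL hLb
  exact nc a b ao bo (hc hb a ha)

theorem four [Nontrivial X] (hR : solvableRadical X = ⊥) :
    ∃ t e : X, t ≠ 1 ∧ e ≠ 1 ∧ t ≠ e ∧ t * t = 1 ∧ e * e = 1 ∧ t * e = e * t := by
  have := Fact.mk Nat.prime_two
  have odd : ∀ N : Subgroup X, N.Normal → ¬ 2 ∣ Nat.card N → N ≤ ⊥ := fun N _ e =>
    hR ▸ Core.le_solvableRadical (Feit_Thompson (Nat.not_even_iff_odd.1 fun e' => e e'.two_dvd))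
  obtain ⟨t, -, ht⟩ := Core.exists_mem_orderOf_eq_of_dvd_card (p := 2) (H := (⊤ : Subgroup X)) (by
    by_contra e
    exact top_ne_bot (le_bot_iff.1 (odd ⊤ inferInstance e)))
  have t2 : t * t = 1 := by rw [← sq, ← ht, pow_orderOf_eq_one]
  have t1 : t ≠ 1 := fun e => by simp [e] at ht
  by_contra! hn
  have h1 : pPrimeCore 2 X ≤ ⊥ := odd _ inferInstance Core.not_dvd_card_pPrimeCore
  have h2 : ∀ g, g * t * g⁻¹ = t := fun g => mul_inv_eq_one.1 (h1 (R1.zstar X t t2 (fun g e => by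
    by_contra e'
    refine hn t _ t1 (by simpa using t1) (Ne.symm e') t2 ?_ e
    calc g * t * g⁻¹ * (g * t * g⁻¹) = g * (t * t) * g⁻¹ := by group
      _ = 1 := by rw [t2]; group) g))
  have h3 : (zpowers t).Normal := ⟨by
    rintro _ ⟨k, rfl⟩ g
    exact ⟨k, by simp only [← conj_zpow, h2]⟩⟩
  exact t1 (hR.le (Core.le_solvableRadical (N := zpowers t) inferInstance (mem_zpowers t)))

/-- at most two cosets of a cyclic subgroup -/
def Cyc2 (P : Subgroup X) : Prop := ∃ x : X, ∀ a ∈ P, ∀ b ∈ P,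
  a ∈ zpowers x ∨ b ∈ zpowers x ∨ a * b⁻¹ ∈ zpowers x

theorem cyc2_of_isFC {P : Subgroup X} (hP : IsPGroup 2 P) (h : Frob.IsFC P) : Cyc2 P := by
  have := Fact.mk Nat.prime_two
  have hT : IsPGroup 2 (⊤ : Subgroup P) := hP.to_subgroup ⊤
  rcases h.isCyclic_or_quaternion hT with hc | ⟨-, k, -, ⟨e⟩⟩
  · obtain ⟨x, hx⟩ := hc.exists_generator
    refine ⟨x, fun a ha _ _ => .inl ?_⟩
    obtain ⟨n, hn⟩ := hx ⟨⟨a, ha⟩, mem_top _⟩
    exact ⟨n, by simpa using congrArg (fun z : (⊤ : Subgroup P) => ((z : P) : X)) hn⟩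
  · set f : QuaternionGroup (2 ^ k) →* X :=
      P.subtype.comp ((⊤ : Subgroup P).subtype.comp e.symm.toMonoidHom) with hf
    have h1 : ∀ i, f (.a i) ∈ zpowers (f (.a 1)) := fun i => by
      refine ⟨i.val, ?_⟩
      change f (.a 1) ^ (i.val : ℤ) = _
      rw [zpow_natCast, ← map_pow, QuaternionGroup.a_one_pow, ZMod.natCast_zmod_val]
    have h2 : ∀ a ∈ P, ∃ q, f q = a := fun a ha => ⟨e ⟨⟨a, ha⟩, mem_top _⟩, by simp [hf]⟩
    refine ⟨f (.a 1), fun a ha b hb => ?_⟩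
    obtain ⟨i | i, rfl⟩ := h2 a ha
    · exact .inl (h1 i)
    obtain ⟨j | j, rfl⟩ := h2 b hb
    · exact .inr (.inl (h1 j))
    · exact .inr (.inr (by rw [← map_inv, ← map_mul]; exact h1 _))

theorem noCom_of_cyc2 (hR : solvableRadical X = ⊥)
    (h : ∀ P : Subgroup X, IsPGroup 2 P → Cyc2 P) : NoCom X := by
  have := Fact.mk Nat.prime_two
  have rad : ∀ L : Subgroup X, L.IsSubnormal → solvableRadical L = ⊥ := fun L hL => by
    rw [← map_eq_bot_iff_of_injective _ L.subtype_injective, eq_bot_iff, ← hR]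
    exact Core.map_solvableRadical_le_of_isSubnormal hL
  have inv : ∀ t : X, t * t = 1 → IsPGroup 2 (zpowers t) := fun t ht => by
    rintro ⟨_, k, rfl⟩
    refine ⟨1, Subtype.ext ?_⟩
    change (t ^ k) ^ (2 ^ 1) = 1
    rw [pow_one, ← zpow_natCast, ← zpow_mul, mul_comm, zpow_mul, zpow_natCast, sq, ht, one_zpow]
  have ex : ∀ L : Subgroup X, L.IsSubnormal → L ≠ ⊥ → ∃ P ≤ L, IsPGroup 2 P ∧
      ∀ Q : Subgroup X, P ≤ Q → ∀ x : X, (∀ a ∈ Q, ∀ b ∈ Q, a ∈ zpowers x ∨ b ∈ zpowers x ∨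
        a * b⁻¹ ∈ zpowers x) → ∃ v ∈ L, v ∈ zpowers x ∧ orderOf v = 2 := fun L hL hb => by
    have := (nontrivial_iff_ne_bot L).2 hb
    obtain ⟨t, e, t1, e1, te, t2, e2, hc⟩ := four (rad L hL)
    have t2' : (t : X) * t = 1 := congrArg Subtype.val t2
    have e2' : (e : X) * e = 1 := congrArg Subtype.val e2
    have hc' : (t : X) * e = e * t := congrArg Subtype.val hc
    refine ⟨zpowers (t : X) ⊔ zpowers (e : X), sup_le (zpowers_le.2 t.2) (zpowers_le.2 e.2),
      (inv _ t2').to_sup_of_normal_right' (inv _ e2') (zpowers_le.2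
        (Subgroup.centralizer_le_normalizer _ ?_)), fun Q hQ x hx => ?_⟩
    · rintro _ ⟨k, rfl⟩
      exact ((show Commute (e : X) t from hc'.symm).zpow_left k)
    rcases hx t (hQ (mem_sup_left (mem_zpowers _))) e (hQ (mem_sup_right (mem_zpowers _)))
      with h1 | h1 | h1
    · exact ⟨t, t.2, h1, orderOf_eq_prime (by rw [sq, t2']) fun e' => t1 (Subtype.ext e')⟩
    · exact ⟨e, e.2, h1, orderOf_eq_prime (by rw [sq, e2']) fun e' => e1 (Subtype.ext e')⟩
    · refine ⟨_, L.mul_mem t.2 (L.inv_mem e.2), h1, orderOf_eq_prime ?_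
        fun e' => te (Subtype.ext (mul_inv_eq_one.1 e'))⟩
      rw [inv_eq_of_mul_eq_one_right e2', sq]
      calc (t : X) * e * (t * e) = t * (e * t) * e := by group
        _ = t * t * (e * e) := by rw [← hc']; group
        _ = 1 := by rw [t2', e2', one_mul]
  intro L D hL hD hLb hDb hc
  obtain ⟨P, hP, P2, hPx⟩ := ex L hL hLb
  obtain ⟨Q, hQ, Q2, hQx⟩ := ex D hD hDb
  obtain ⟨x, hx⟩ := h (P ⊔ Q) (P2.to_sup_of_normal_right' Q2 (hP.trans (hc.trans
    ((centralizer_le hQ).trans (Subgroup.centralizer_le_normalizer _)))))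
  obtain ⟨u, uL, ux, uo⟩ := hPx _ le_sup_left x hx
  obtain ⟨v, vD, vx, vo⟩ := hQx _ le_sup_right x hx
  have huv : (⟨u, ux⟩ : zpowers x) = ⟨v, vx⟩ := (Frob.isFC_of_isCyclic).eq_of_orderOf_eq_two
    (by rw [← uo, ← orderOf_coe]) (by rw [← vo, ← orderOf_coe])
  obtain rfl : u = v := congrArg Subtype.val huv
  have h3 : (zpowers (⟨u, uL⟩ : L)).Normal := ⟨by
    rintro _ ⟨k, rfl⟩ g
    refine ⟨k, ?_⟩
    have : g * ⟨u, uL⟩ * g⁻¹ = ⟨u, uL⟩ := by
      rw [mul_inv_eq_iff_eq_mul]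
      exact Subtype.ext (hc g.2 u vD).symm
    simp only [← conj_zpow, this]⟩
  have h4 := (rad L hL).le (Core.le_solvableRadical (N := zpowers (⟨u, uL⟩ : L)) inferInstance
    (mem_zpowers _))
  have h5 : u = 1 := congrArg Subtype.val (mem_bot.1 h4)
  simp [h5] at uo

/-- `S4008` from `CE` -/
theorem red (h : CE.{u}) {G : Type u} [Group G] [Finite G] (hns : ¬ Group.IsSolvable G)
    (r : ℕ) (hr : r.Prime) (hodd : r ≠ 2) (hrG : r ∣ Nat.card G) (hno : ∀ g : G, orderOf g ≠ 2 * r)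
    (R : Subgroup G) [R.Normal] (hRs : Group.IsSolvable ↥R)
    (hRmax : ∀ N : Subgroup G, N.Normal → Group.IsSolvable ↥N → N ≤ R) :
    ∃ S : Subgroup (G ⧸ R), S.Normal ∧ IsSimpleGroup ↥S ∧ ¬ IsMulCommutative ↥S ∧
      Subgroup.centralizer (S : Set (G ⧸ R)) = ⊥ := by
  have := Fact.mk hr
  have := Fact.mk Nat.prime_two
  obtain rfl : R = solvableRadical G := le_antisymm (Core.le_solvableRadical hRs)
    (hRmax _ inferInstance Core.isSolvable_solvableRadical)
  have hR := Core.solvableRadical_quotient_solvableRadical (G := G)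
  set R := solvableRadical G
  set π := QuotientGroup.mk' R with hπ
  have hs : Function.Surjective π := QuotientGroup.mk'_surjective R
  have : Nontrivial (G ⧸ R) := by
    by_contra e
    rw [not_nontrivial_iff_subsingleton] at e
    exact hns (Group.isSolvable_of_ker_le_range R.subtype π (by simp [hπ]))
  refine NoCom.almost ?_
  by_cases hd : r ∣ Nat.card (G ⧸ R)
  · exact noCom_of_dvd h hR hr hodd hd fun g e => by
      obtain ⟨y, hy⟩ := Frob.exists_orderOf_eq_of_surjective hs ⟨g, e⟩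
      exact hno y hy
  refine noCom_of_cyc2 hR fun P hP => ?_
  have hdR : r ∣ Nat.card R := by
    rw [card_eq_card_quotient_mul_card_subgroup R] at hrG
    exact (hr.dvd_mul.1 hrG).resolve_left hd
  obtain ⟨Q⟩ : Nonempty (Sylow r R) := inferInstance
  set K := (Q : Subgroup R).map R.subtype with hK
  have hKb : K ≠ ⊥ := by
    rw [Ne, map_eq_bot_iff_of_injective _ R.subtype_injective]
    exact Q.ne_bot_of_dvd_card hdR
  have hKr : IsPGroup r K := Q.2.map _
  set N := normalizer (K : Set G) with hN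
  have hNs : Function.Surjective (π.comp N.subtype) := by
    rw [← MonoidHom.range_eq_top, MonoidHom.range_comp, range_subtype, eq_top_iff,
      ← map_top_of_surjective π hs, ← Q.normalizer_sup_eq_top, Subgroup.map_sup,
      (Core.map_mk_eq_bot_iff R R).2 le_rfl, sup_bot_eq]
  obtain ⟨T, T2, rfl⟩ := Mix.exists_isPGroup_map_eq hNs hP
  obtain ⟨x, hx⟩ := cyc2_of_isFC (T2.map N.subtype) (Frob.isFC_of_fpf (map_subtype_le T) hKb
    fun a ha a1 k hk e => by
      by_contra k1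
      obtain ⟨g, hg⟩ := Frob.exists_orderOf_eq_mul_of_commute e
        ((Nat.coprime_primes Nat.prime_two hr).2 hodd.symm)
        (by simpa using (T2.map N.subtype).dvd_orderOf (g := ⟨a, ha⟩) (by simpa using a1))
        (by simpa using hKr.dvd_orderOf (g := ⟨k, hk⟩) (by simpa using k1))
      exact hno g hg)
  refine ⟨π x, ?_⟩
  rintro _ ⟨a, ha, rfl⟩ _ ⟨b, hb, rfl⟩
  have im : ∀ y ∈ zpowers x, π y ∈ zpowers (π x) := by
    rintro _ ⟨k, rfl⟩
    exact ⟨k, (map_zpow π x k).symm⟩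
  rcases hx a ⟨a, ha, rfl⟩ b ⟨b, hb, rfl⟩ with h1 | h1 | h1
  · exact .inl (im _ h1)
  · exact .inr (.inl (im _ h1))
  · exact .inr (.inr (by simpa using im _ h1))

end Cfsg.Agent.CE
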